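import Cfsg.Agent.KFacts.TwF4.Perf
import Cfsg.Agent.KFacts.TwF4.TorFix

/-!
# `²F₄(q)`: `U⁻ ∩ B = 1` and the arcs `U ∩ g B g⁻¹` (helper628)

`S : Full σ G`, `U = J 1 8`, `B = J 1 8 ⊔ T`.

* `opp` : `J 1 8 ∩ J 9 16 = 1`;
* `opp_BT` : `J 9 16 ∩ B = 1` (`G` finite, characteristic 2);
* `desc` : for `g ∉ B`, `U ∩ g B g⁻¹ ≤ J 2 8` or `U ∩ g B g⁻¹ ≤ J 1 7`;
* `desc_one`, `desc_two` : the two parabolic subgroups.
-/

set_option autoImplicit false
set_option linter.unusedSectionVars false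

namespace Cfsg.Agent.H628.EPX

open Cfsg.Agent.SplitTwo Cfsg.Agent.SplitTwo.ZS Cfsg.Agent.TitsThree.RankTwoZ
open Cfsg.Agent.KFacts.TwF4 Cfsg.Agent.KFacts.TwF4.Full Cfsg.Agent.KFacts.TwF4.Arc
open Cfsg.Agent.KFacts.TwF4.Inv Cfsg.Agent.KFacts.TwF4.SylU Cfsg.Agent.KFacts.TwF4.Perf
open scoped commutatorElement

universe u

variable {F : Type*} [Field F] {σ : F →+* F} {G : Type u} [Group G] (S : Full σ G)

/-! ### periodicity and rotation -/

theorem J_per (a b : ℤ) : J S.XZ (a + 16) (b + 16) = J S.XZ a b := by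
  have per : ∀ k, S.XZ (k + 16) = S.XZ k := fun k => S.zsys8.per k
  apply le_antisymm
  · refine J_le fun k h1 h2 => ?_
    have := per (k - 16)
    rw [sub_add_cancel] at this
    rw [this]
    exact X_le_J (by omega) (by omega)
  · refine J_le fun k h1 h2 => ?_
    rw [← per k]
    exact X_le_J (by omega) (by omega)

theorem rotk_J (k : ℤ) {a b : ℤ} {x : G} (hx : x ∈ J S.XZ a b) :
    S.rot ^ k * x * (S.rot ^ k)⁻¹ ∈ J S.XZ (a + 2 * k) (b + 2 * k) := by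
  rw [← S.map_J k a b]; exact ⟨x, hx, rfl⟩

/-- `Z_{2a}` is centralised by `J (2a-4) (2a+4)` -/
theorem comm_Z (a : ℤ) {x : G} (hx : x ∈ J S.XZ (2 * a - 4) (2 * a + 4)) (u : F) :
    x * S.e (a : ZMod 8) 0 u = S.e (a : ZMod 8) 0 u * x := by
  have h1 := rotk_J S (2 - a) hx
  rw [show 2 * a - 4 + 2 * (2 - a) = 0 by ring, show 2 * a + 4 + 2 * (2 - a) = 8 by ring] at h1
  have h2 := S.rotk_e (2 - a) (a : ZMod 8) 0 u
  have e : (a : ZMod 8) + ((2 - a : ℤ) : ZMod 8) = 2 := by push_cast; ring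
  rw [e] at h2
  have h3 := S.comm_PL h1 (S.mem_Zc.2 ⟨u, rfl⟩)
  rw [← h2] at h3
  calc x * S.e (a : ZMod 8) 0 u = (S.rot ^ (2 - a))⁻¹ * (S.rot ^ (2 - a) * x * (S.rot ^ (2 - a))⁻¹ *
        (S.rot ^ (2 - a) * S.e (a : ZMod 8) 0 u * (S.rot ^ (2 - a))⁻¹)) * S.rot ^ (2 - a) := by group
    _ = _ := by rw [h3]; group

/-! ### `n2 ∈ ⟨Z_0, Z_8⟩` -/

theorem word_aux {a n z w : G} (hz : a * a = z) (hz2 : z * z = 1) (hw : a * w = n * a) (hn : n * z * n = w) :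
    n = z * w * z * w * z := by
  have haz : a * z = z * a := by rw [← hz]; group
  have e1 : z * w = a * n * a := by rw [← hz, mul_assoc, hw]; group
  symm
  calc z * w * z * w * z = a * n * (a * z) * w * z := by rw [e1]; group
    _ = a * n * z * (a * w) * z := by rw [haz]; group
    _ = a * (n * z * n) * a * z := by rw [hw]; group
    _ = n * (a * a) * z := by rw [hn, hw]; group
    _ = n := by rw [hz, mul_assoc, hz2, mul_one]

theorem n2_words : S.n2 = S.e 0 0 1 * S.e 4 0 1 * S.e 0 0 1 * S.e 4 0 1 * S.e 0 0 1 := by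
  refine word_aux (a := S.e 0 1 0) ?_ ?_ ?_ ?_
  · rw [S.e_mul, char2 S, map_one, mul_one, add_zero, zero_add]
  · rw [S.e_mul, map_zero, mul_zero, add_zero, char2 S, add_zero, S.e_zero]
  · rw [n2_word' S]; group
  · have h := S.n2_e 0 0 1
    rw [sub_zero, inv_eq_of_mul_eq_one_right S.n2_sq] at h
    exact h

theorem comm_n2 {x : G} (h0 : x * S.e 0 0 1 = S.e 0 0 1 * x) (h8 : x * S.e 4 0 1 = S.e 4 0 1 * x) :
    S.n2 * x * S.n2⁻¹ = x := by
  have c0 : Commute x (S.e 0 0 1) := h0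
  have c8 : Commute x (S.e 4 0 1) := h8
  have c : Commute x S.n2 := by
    rw [n2_words S]
    exact (((c0.mul_right c8).mul_right c0).mul_right c8).mul_right c0
  rw [mul_inv_eq_iff_eq_mul]
  exact c.eq.symm

/-! ### `U ∩ U⁻ = 1` -/

/-- `X_k ∩ J (k+1) (k+8) = 1`, `k` even -/
theorem X_inf_even {k l m : ℤ} (a : ℤ) (hk : k = 2 * a) (hl : l = 2 * a + 1) (hm : m = 2 * a + 8) {x : G}
    (hx : x ∈ S.XZ k) (h : x ∈ J S.XZ l m) : x = 1 := by
  subst hk hl hm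
  have h1 := S.rotk_X' (-a) _ hx
  have h2 := rotk_J S (-a) h
  rw [show 2 * a + 2 * -a = 0 by ring] at h1
  rw [show 2 * a + 1 + 2 * -a = 1 by ring, show 2 * a + 8 + 2 * -a = 8 by ring] at h2
  have h3 := (S.J07_inf_UT h1 h2 (one_mem S.T) (by rw [mul_one])).1
  calc x = (S.rot ^ (-a))⁻¹ * (S.rot ^ (-a) * x * (S.rot ^ (-a))⁻¹) * S.rot ^ (-a) := by group
    _ = 1 := by rw [h3]; group

theorem D_one : ∀ n : ℕ, n ≤ 7 → ∀ x ∈ J S.XZ 5 (4 + n), x ∈ J S.XZ (-3) 3 → x = 1 := by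
  have Z8 := S.zsys8
  intro n
  induction n with
  | zero => intro _ x hx _; exact eq_one_of_J hx (by norm_num)
  | succ n ih =>
    intro hn x hx hx'
    push_cast at hx
    -- `x` commutes with `X_4`
    have hc : ∀ r ∈ S.XZ 4, x * r = r * x := by
      intro r hr
      have h1 : ⁅x, r⁆ ∈ J S.XZ 5 (4 + n) :=
        J_mono (by omega) (by omega) (Z8.comm_J_left' (a := 5) (b := 4 + (n + 1)) (c := 4) (by omega) (by omega) hx hr)
      have h2 : ⁅x, r⁆ ∈ J S.XZ (-3) 3 :=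
        J_mono (by omega) (by omega) (Z8.comm_J_right (a := -3) (b := 3) (d := 4) (by omega) (by omega) hx' hr)
      exact commutatorElement_eq_one_iff_mul_comm.1 (ih (by omega) _ h1 h2)
    have h4 : S.e 2 0 1 ∈ S.XZ 4 := (mem_X4 S).2 ⟨0, 1, rfl⟩
    have h41 : S.e 2 0 1 ≠ 1 := fun h => one_ne_zero (S.e_eq_one h).2
    have k1 : x ∈ J S.XZ 4 8 := Z8.comm_top (k := 4) (b := 4 + (n + 1)) (r := 4) (by norm_num) (by omega) h4 h41
      (J_mono (by omega) le_rfl hx) (hc _ h4)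
    have k2 : x ∈ J S.XZ 5 8 := Z8.inter_J 4 k1 hx (by omega) (by omega) (by omega) (by omega) (Or.inr le_rfl)
      (Or.inl le_rfl)
    have k3 : x ∈ J S.XZ 0 4 := Z8.comm_bot (k := 4) (a := -3) (r := 4) (by norm_num) (by omega) h4 h41
      (J_mono le_rfl (by omega) hx') (hc _ h4)
    have k4 : x ∈ J S.XZ 0 3 := Z8.inter_J (-3) k3 hx' (by omega) (by omega) (by omega) (by omega) (Or.inl le_rfl)
      (Or.inr le_rfl)
    -- `x` commutes with `Z_6`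
    have k5 : x * S.e 3 0 1 = S.e 3 0 1 * x := by
      have := comm_Z S 3 (J_mono (by norm_num) (by norm_num) k2) 1
      exact_mod_cast this
    have k6 : x ∈ J S.XZ 2 6 := Z8.comm_bot (k := 6) (a := 0) (r := 4) (by norm_num) (by omega)
      ((mem_X6 S).2 ⟨0, 1, rfl⟩) (fun h => one_ne_zero (S.e_eq_one h).2) (J_mono le_rfl (by omega) k4) k5
    have k7 : x ∈ J S.XZ 2 3 := Z8.inter_J 0 k6 k4 (by omega) (by omega) (by omega) (by omega) (Or.inl le_rfl)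
      (Or.inr le_rfl)
    exact Z8.inter_one 2 k7 k2 (by omega) (by omega) (by omega) (by omega) (Or.inl (by omega))

theorem opp_aux {x : G} (h1 : x ∈ J S.XZ 5 12) (h2 : x ∈ J S.XZ (-3) 4) : x = 1 := by
  have Z8 := S.zsys8
  have c8 : x * S.e 4 0 1 = S.e 4 0 1 * x := by
    have := comm_Z S 4 (J_mono (by norm_num) (by norm_num) h1) 1
    exact_mod_cast this
  have c0 : x * S.e 0 0 1 = S.e 0 0 1 * x := by
    have := comm_Z S 0 (J_mono (by norm_num) (by norm_num) h2) 1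
    exact_mod_cast this
  have hn := comm_n2 S c0 c8
  have h3 : x ∈ J S.XZ (-4) 3 := by
    rw [← hn]; exact S.n2_refl.mem_J h1 (by norm_num) (by norm_num)
  have h4 : x ∈ J S.XZ 4 11 := by
    rw [← hn]; exact S.n2_refl.mem_J h2 (by norm_num) (by norm_num)
  have h5 : x ∈ J S.XZ (-3) 3 := by
    obtain ⟨y, hy, y', hy', e⟩ := Z8.split_ll (a := -4) (b := 3) (by norm_num) (by norm_num) h3
    have : y ∈ J S.XZ (-3) 4 := by
      have e2 : y = x * y'⁻¹ := by rw [e]; group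
      rw [e2]; exact mul_mem h2 (inv_mem (J_mono (by norm_num) (by norm_num) hy'))
    have hy1 : y = 1 := X_inf_even S (-2) (by norm_num) (by norm_num) (by norm_num) hy this
    rw [e, hy1, one_mul]; exact hy'
  have h6 : x ∈ J S.XZ 5 11 := by
    obtain ⟨y, hy, y', hy', e⟩ := Z8.split_ll (a := 4) (b := 11) (by norm_num) (by norm_num) h4
    have : y ∈ J S.XZ 5 12 := by
      have e2 : y = x * y'⁻¹ := by rw [e]; group
      rw [e2]; exact mul_mem h1 (inv_mem (J_mono (by norm_num) (by norm_num) hy'))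
    have hy1 : y = 1 := X_inf_even S 2 (by norm_num) (by norm_num) (by norm_num) hy this
    rw [e, hy1, one_mul]; exact hy'
  exact D_one S 7 le_rfl x h6 h5

/-- **`U ∩ U⁻ = 1`** -/
theorem opp {x : G} (h1 : x ∈ J S.XZ 1 8) (h2 : x ∈ J S.XZ 9 16) : x = 1 := by
  have k1 := rotk_J S 2 h1
  have k2 := rotk_J S 2 h2
  rw [show (9 : ℤ) + 2 * 2 = -3 + 16 by norm_num, show (16 : ℤ) + 2 * 2 = 4 + 16 by norm_num, J_per] at k2
  have h3 := opp_aux S k1 k2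
  calc x = (S.rot ^ (2 : ℤ))⁻¹ * (S.rot ^ (2 : ℤ) * x * (S.rot ^ (2 : ℤ))⁻¹) * S.rot ^ (2 : ℤ) := by group
    _ = 1 := by rw [h3]; group

theorem form_BT {g : G} (hg : g ∈ J S.XZ 1 8 ⊔ S.T) : ∃ u ∈ J S.XZ 1 8, ∃ t ∈ S.T, g = u * t := by
  have h1 : g ∈ S.T ⊔ J S.XZ 1 8 := by rwa [sup_comm] at hg
  obtain ⟨t, ht, u, hu, h⟩ := mem_sup_of_norm (A := S.T) (B := J S.XZ 1 8) (fun t ht u hu => S.T_conj_J ht hu) h1
  exact ⟨t * u * t⁻¹, S.T_conj_J ht hu, t, ht, by rw [h]; group⟩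

theorem pow_BT {u t : G} (hu : u ∈ J S.XZ 1 8) (ht : t ∈ S.T) (n : ℕ) : ∃ v ∈ J S.XZ 1 8, (u * t) ^ n = v * t ^ n := by
  induction n with
  | zero => exact ⟨1, one_mem _, by simp⟩
  | succ n ih =>
    obtain ⟨v, hv, e⟩ := ih
    refine ⟨v * (t ^ n * u * (t ^ n)⁻¹), mul_mem hv (S.T_conj_J (pow_mem ht n) hu), ?_⟩
    rw [pow_succ, e, pow_succ]; group

section fin

variable [Finite G]

/-- `U⁻ ∩ B = 1` -/
theorem opp_BT [Finite F] (hR : S.R.p = 2) {x : G} (hx : x ∈ J S.XZ 9 16) (h : x ∈ J S.XZ 1 8 ⊔ S.T) : x = 1 := by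
  obtain ⟨u, hu, t, ht, e⟩ := form_BT S h
  obtain ⟨k, hk⟩ := two_J S hR (a := 9) (b := 16) (by norm_num) ⟨x, hx⟩
  have hk' : x ^ 2 ^ k = 1 := congrArg Subtype.val hk
  obtain ⟨v, hv, e2⟩ := pow_BT S hu ht (2 ^ k)
  have h1 : t ^ 2 ^ k = 1 := by
    apply S.U_inf_T (pow_mem ht _)
    have e3 : v * t ^ 2 ^ k = 1 := by rw [← e2, ← e]; exact hk'
    rw [eq_inv_of_mul_eq_one_right e3]; exact inv_mem hv
  have h2 : t = 1 := by
    obtain ⟨c, d, rfl⟩ := S.mem_T.1 ht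
    obtain ⟨h7, h8⟩ := torus_two S h1
    rw [h7, h8, S.h_one]
  rw [h2, mul_one] at e
  exact opp S (e ▸ hu) hx

omit [Finite G] in
/-- transfer from the Weyl element to the group element -/
theorem transfer {K : Subgroup G} {b t w b' : G} (hb : b ∈ J S.XZ 1 8) (ht : t ∈ S.T) (hb' : b' ∈ J S.XZ 1 8)
    (hKb : ∀ x ∈ K, b * x * b⁻¹ ∈ K) (hKt : ∀ x ∈ K, t * x * t⁻¹ ∈ K)
    (h : ∀ u ∈ J S.XZ 1 8, w⁻¹ * u * w⁻¹⁻¹ ∈ J S.XZ 1 8 ⊔ S.T → u ∈ K) :
    ∀ u ∈ J S.XZ 1 8, (b * t * w * b')⁻¹ * u * (b * t * w * b') ∈ J S.XZ 1 8 ⊔ S.T → u ∈ K := by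
  intro u hu hg
  have h1 : t⁻¹ * (b⁻¹ * u * b⁻¹⁻¹) * t⁻¹⁻¹ ∈ J S.XZ 1 8 :=
    S.T_conj_J (inv_mem ht) (mul_mem (mul_mem (inv_mem hb) hu) (inv_mem (inv_mem hb)))
  have h2 : t⁻¹ * (b⁻¹ * u * b⁻¹⁻¹) * t⁻¹⁻¹ ∈ K := by
    refine h _ h1 ?_
    have e : w⁻¹ * (t⁻¹ * (b⁻¹ * u * b⁻¹⁻¹) * t⁻¹⁻¹) * w⁻¹⁻¹ =
        b' * ((b * t * w * b')⁻¹ * u * (b * t * w * b')) * b'⁻¹ := by group
    rw [e]
    exact mul_mem (mul_mem (Subgroup.mem_sup_left hb') hg) (inv_mem (Subgroup.mem_sup_left hb'))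
  have e : u = b * (t * (t⁻¹ * (b⁻¹ * u * b⁻¹⁻¹) * t⁻¹⁻¹) * t⁻¹) * b⁻¹ := by group
  rw [e]
  exact hKb _ (hKt _ h2)

theorem one_left [Finite F] (hR : S.R.p = 2) {v p q : G} (h : v * (p * q) * v⁻¹ ∈ J S.XZ 1 8 ⊔ S.T)
    (hp : v * p * v⁻¹ ∈ J S.XZ 9 16) (hq : v * q * v⁻¹ ∈ J S.XZ 1 8) : p = 1 := by
  have h1 : v * p * v⁻¹ ∈ J S.XZ 1 8 ⊔ S.T := by
    have e : v * p * v⁻¹ = (v * (p * q) * v⁻¹) * (v * q * v⁻¹)⁻¹ := by group
    rw [e]
    exact mul_mem h (inv_mem (Subgroup.mem_sup_left hq))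
  have h2 := opp_BT S hR hp h1
  calc p = v⁻¹ * (v * p * v⁻¹) * v := by group
    _ = 1 := by rw [h2]; group

theorem one_right [Finite F] (hR : S.R.p = 2) {v p q : G} (h : v * (p * q) * v⁻¹ ∈ J S.XZ 1 8 ⊔ S.T)
    (hp : v * p * v⁻¹ ∈ J S.XZ 1 8) (hq : v * q * v⁻¹ ∈ J S.XZ 9 16) : q = 1 := by
  have h1 : v * q * v⁻¹ ∈ J S.XZ 1 8 ⊔ S.T := by
    have e : v * q * v⁻¹ = (v * p * v⁻¹)⁻¹ * (v * (p * q) * v⁻¹) := by group
    rw [e]
    exact mul_mem (inv_mem (Subgroup.mem_sup_left hp)) h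
  have h2 := opp_BT S hR hq h1
  calc q = v⁻¹ * (v * q * v⁻¹) * v := by group
    _ = 1 := by rw [h2]; group

variable [Finite F] (hR : S.R.p = 2) {v : G} {c : ℤ}

include hR

theorem rot_low (hv : Maps S.R.X v (fun k => ((2 * c : ℤ) : ZMod (2 * 8)) + k)) (h0 : 1 ≤ c) (h3 : c ≤ 3) :
    ∀ u ∈ J S.XZ 1 8, v * u * v⁻¹ ∈ J S.XZ 1 8 ⊔ S.T → u ∈ J S.XZ 1 7 := by
  intro u hu h
  obtain ⟨p, hp, q, hq, rfl⟩ := S.zsys8.split (a := 1) (b := 8) (c := 9 - 2 * c) (by omega) (by omega) (by omega) hu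
  have hq1 := one_right S hR h (J_mono (by omega) (by omega) (S.map_add hv hp))
    (J_mono (by omega) (by omega) (S.map_add hv hq))
  rw [hq1, mul_one]
  exact J_mono (by omega) (by omega) hp

theorem rot_high (hv : Maps S.R.X v (fun k => ((2 * c : ℤ) : ZMod (2 * 8)) + k)) (h4 : 4 ≤ c) (h7 : c ≤ 7) :
    ∀ u ∈ J S.XZ 1 8, v * u * v⁻¹ ∈ J S.XZ 1 8 ⊔ S.T → u ∈ J S.XZ 2 8 := by
  intro u hu h
  obtain ⟨p, hp, q, hq, rfl⟩ := S.zsys8.split (a := 1) (b := 8) (c := 17 - 2 * c) (by omega) (by omega) (by omega) hu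
  have h2 : v * q * v⁻¹ ∈ J S.XZ 1 8 := by
    have := S.map_add hv hq
    rw [show 2 * c + (17 - 2 * c) = 1 + 16 by ring, show 2 * c + 8 = (2 * c - 8) + 16 by ring, J_per] at this
    exact J_mono (by omega) (by omega) this
  have hp1 := one_left S hR h (J_mono (by omega) (by omega) (S.map_add hv hp)) h2
  rw [hp1, one_mul]
  exact J_mono (by omega) (by omega) hq

theorem refl_low (hv : Maps S.R.X v (fun k => ((2 * c : ℤ) : ZMod (2 * 8)) - k)) (h5 : 5 ≤ c) (h8 : c ≤ 8) :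
    ∀ u ∈ J S.XZ 1 8, v * u * v⁻¹ ∈ J S.XZ 1 8 ⊔ S.T → u ∈ J S.XZ 2 8 := by
  intro u hu h
  obtain ⟨p, hp, q, hq, rfl⟩ := S.zsys8.split (a := 1) (b := 8) (c := 2 * c - 8) (by omega) (by omega) (by omega) hu
  have hp1 := one_left S hR h (J_mono (by omega) (by omega) (S.map_sub hv hp))
    (J_mono (by omega) (by omega) (S.map_sub hv hq))
  rw [hp1, one_mul]
  exact J_mono (by omega) (by omega) hq

theorem refl_high (hv : Maps S.R.X v (fun k => ((2 * c : ℤ) : ZMod (2 * 8)) - k)) (h9 : 9 ≤ c) (h12 : c ≤ 12) :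
    ∀ u ∈ J S.XZ 1 8, v * u * v⁻¹ ∈ J S.XZ 1 8 ⊔ S.T → u ∈ J S.XZ 1 7 := by
  intro u hu h
  obtain ⟨p, hp, q, hq, rfl⟩ := S.zsys8.split (a := 1) (b := 8) (c := 2 * c - 16) (by omega) (by omega) (by omega) hu
  have h2 : v * p * v⁻¹ ∈ J S.XZ 1 8 := by
    have := S.map_sub hv hp
    rw [show 2 * c - (2 * c - 16 - 1) = 1 + 16 by ring, show 2 * c - 1 = (2 * c - 17) + 16 by ring, J_per] at this
    exact J_mono (by omega) (by omega) this
  have hq1 := one_right S hR h h2 (J_mono (by omega) (by omega) (S.map_sub hv hq))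
  rw [hq1, mul_one]
  exact J_mono (by omega) (by omega) hp

omit hR [Finite F] [Finite G] in
/-- the inverse of a Weyl element, in normal form -/
theorem inv_form {w : G} (hw : S.IsDihE w) :
    (∃ c : ℤ, 0 ≤ c ∧ c ≤ 7 ∧ Maps S.R.X w⁻¹ (fun k => ((2 * c : ℤ) : ZMod (2 * 8)) + k)) ∨
    ∃ c : ℤ, 5 ≤ c ∧ c ≤ 12 ∧ Maps S.R.X w⁻¹ (fun k => ((2 * c : ℤ) : ZMod (2 * 8)) - k) := by
  obtain ⟨c, hc | hc⟩ := hw
  · left
    have h1 : Maps S.R.X w⁻¹ (fun k => ((2 * -c : ℤ) : ZMod (2 * 8)) + k) := hc.inv fun k => by push_cast; ring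
    obtain ⟨c', k1, k2, k3⟩ := reduce (-c) 0
    rw [k3] at h1
    exact ⟨c', k1, by omega, h1⟩
  · right
    have h1 : Maps S.R.X w⁻¹ (fun k => ((2 * c : ℤ) : ZMod (2 * 8)) - k) := hc.inv fun k => by push_cast; ring
    obtain ⟨c', k1, k2, k3⟩ := reduce c 5
    rw [k3] at h1
    exact ⟨c', k1, by omega, h1⟩

omit hR [Finite F] [Finite G] in
theorem mem_T_of_zero {w : G} (h : Maps S.R.X w⁻¹ (fun k => ((2 * 0 : ℤ) : ZMod (2 * 8)) + k)) : w ∈ S.T := by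
  have h1 : w⁻¹ ∈ S.T := by
    show Maps S.R.X w⁻¹ id
    exact h.congr fun k => by rw [mul_zero, Int.cast_zero, zero_add]; rfl
  rw [← inv_inv w]; exact inv_mem h1

omit hR [Finite F] [Finite G] in
theorem conj_28 {b x : G} (hb : b ∈ J S.XZ 1 8) (hx : x ∈ J S.XZ 2 8) : b * x * b⁻¹ ∈ J S.XZ 2 8 :=
  S.zsys8.conj_J (a := 2) (b := 8) (c := 1) (d := 8) (by norm_num) (by norm_num) (by norm_num) hb hx

omit hR [Finite F] [Finite G] in
theorem conj_17 {b x : G} (hb : b ∈ J S.XZ 1 8) (hx : x ∈ J S.XZ 1 7) : b * x * b⁻¹ ∈ J S.XZ 1 7 :=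
  S.zsys8.conj_J (a := 1) (b := 7) (c := 1) (d := 8) (by norm_num) (by norm_num) (by norm_num) hb hx

omit hR [Finite F] [Finite G] in
theorem mem_B {b t w b' : G} (hb : b ∈ J S.XZ 1 8) (ht : t ∈ S.T) (hw : w ∈ S.T) (hb' : b' ∈ J S.XZ 1 8) :
    b * t * w * b' ∈ J S.XZ 1 8 ⊔ S.T :=
  mul_mem (mul_mem (mul_mem (Subgroup.mem_sup_left hb) (Subgroup.mem_sup_right ht)) (Subgroup.mem_sup_right hw))
    (Subgroup.mem_sup_left hb')

/-- **`U ∩ g B g⁻¹` for `g ∉ B`** -/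
theorem desc {g : G} (hg : g ∉ J S.XZ 1 8 ⊔ S.T) :
    (∀ u ∈ J S.XZ 1 8, g⁻¹ * u * g ∈ J S.XZ 1 8 ⊔ S.T → u ∈ J S.XZ 2 8) ∨
    (∀ u ∈ J S.XZ 1 8, g⁻¹ * u * g ∈ J S.XZ 1 8 ⊔ S.T → u ∈ J S.XZ 1 7) := by
  obtain ⟨b, hb, t, ht, w, hw, b', hb', rfl⟩ := S.bruhatE g
  have one := transfer S (K := J S.XZ 2 8) (w := w) hb ht hb' (fun x hx => conj_28 S hb hx) fun x hx => S.T_conj_J ht hx
  have two := transfer S (K := J S.XZ 1 7) (w := w) hb ht hb' (fun x hx => conj_17 S hb hx) fun x hx => S.T_conj_J ht hx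
  rcases inv_form S hw with ⟨c, h0, h7, hc⟩ | ⟨c, h5, h12, hc⟩
  · rcases eq_or_lt_of_le h0 with h | h
    · subst h
      exact absurd (mem_B S hb ht (mem_T_of_zero S hc) hb') hg
    · rcases le_or_gt c 3 with h3 | h3
      · exact Or.inr (two (rot_low S hR hc (by omega) h3))
      · exact Or.inl (one (rot_high S hR hc (by omega) h7))
  · rcases le_or_gt c 8 with h8 | h8
    · exact Or.inl (one (refl_low S hR hc h5 h8))
    · exact Or.inr (two (refl_high S hR hc (by omega) h12))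

omit hR [Finite F] [Finite G] in
/-- no normalising Weyl element moves a root group of `K` to the negative side -/
theorem no_map {K : Subgroup G} (hK : K ≤ J S.XZ 1 8) (hv : ∀ x ∈ K, v * x * v⁻¹ ∈ K) (k : ℤ) (hk : S.XZ k ≤ K)
    (h : ∀ x ∈ J S.XZ k k, v * x * v⁻¹ ∈ J S.XZ 9 16) : False := by
  obtain ⟨x, hx, hx1⟩ := S.zsys8.exists_ne k
  have h1 := opp S (hK (hv x (hk hx))) (h x (mem_J hx le_rfl le_rfl))
  apply hx1
  calc x = v⁻¹ * (v * x * v⁻¹) * v := by group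
    _ = 1 := by rw [h1]; group

omit hR [Finite F] [Finite G] in
theorem norm_T {a b : ℤ} {t : G} (ht : t ∈ S.T) : t ∈ Subgroup.normalizer (J S.XZ a b : Set G) := by
  rw [Subgroup.mem_normalizer_iff]
  intro x
  refine ⟨fun hx => S.T_conj_J ht hx, fun hx => ?_⟩
  have := S.T_conj_J (inv_mem ht) hx
  have e : t⁻¹ * (t * x * t⁻¹) * t⁻¹⁻¹ = x := by group
  rwa [e] at this

omit hR [Finite F] [Finite G] in
/-- the Weyl part of an element normalising `K` normalises `K` -/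
theorem norm_w {K : Subgroup G} {b t w b' : G} (hU : J S.XZ 1 8 ≤ Subgroup.normalizer (K : Set G))
    (hT : S.T ≤ Subgroup.normalizer (K : Set G)) (hb : b ∈ J S.XZ 1 8) (ht : t ∈ S.T) (hb' : b' ∈ J S.XZ 1 8)
    (hg : b * t * w * b' ∈ Subgroup.normalizer (K : Set G)) : ∀ x ∈ K, w⁻¹ * x * w⁻¹⁻¹ ∈ K := by
  have h1 : w ∈ Subgroup.normalizer (K : Set G) := by
    have e : w = t⁻¹ * b⁻¹ * (b * t * w * b') * b'⁻¹ := by group
    rw [e]
    exact mul_mem (mul_mem (mul_mem (inv_mem (hT ht)) (inv_mem (hU hb))) hg) (inv_mem (hU hb'))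
  intro x hx
  exact (Subgroup.mem_normalizer_iff.1 (inv_mem h1) x).1 hx

omit hR [Finite F] [Finite G] in
/-- `g = b t w b'` with `w ∈ T n` -/
theorem form_n {n : G} {r : ZMod (2 * 8)} (hn : Maps S.R.X n (fun k => r - k)) (hn2 : n * n = 1) {b t w b' : G}
    (hb : b ∈ J S.XZ 1 8) (ht : t ∈ S.T) (hb' : b' ∈ J S.XZ 1 8) (hw : Maps S.R.X w⁻¹ (fun k => r - k)) :
    ∃ u ∈ J S.XZ 1 8, ∃ β ∈ J S.XZ 1 8 ⊔ S.T, b * t * w * b' = u * n * β := by
  have hi : n⁻¹ = n := inv_eq_of_mul_eq_one_left hn2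
  have h1 : n * w⁻¹ ∈ S.T := by
    show Maps S.R.X (n * w⁻¹) id
    exact (hn.mul hw).congr fun k => sub_sub_cancel r k
  have h2 : w * n ∈ S.T := by
    have := inv_mem h1
    rwa [mul_inv_rev, inv_inv, hi] at this
  have h3 : n * (t * (w * n)) * n⁻¹ ∈ S.T := by
    show Maps S.R.X (n * (t * (w * n)) * n⁻¹) id
    rw [hi]
    have h4 : Maps S.R.X (t * (w * n)) id := mul_mem ht h2
    exact ((hn.mul h4).mul hn).congr fun k => sub_sub_cancel r k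
  refine ⟨b, hb, (n * (t * (w * n)) * n⁻¹) * b', mul_mem (Subgroup.mem_sup_right h3) (Subgroup.mem_sup_left hb'), ?_⟩
  have e : b * n * ((n * (t * (w * n)) * n⁻¹) * b') = b * (n * n) * t * w * (n * n⁻¹) * b' := by group
  rw [e, hn2, mul_inv_cancel, mul_one, mul_one]

/-- **the first parabolic subgroup** -/
theorem desc_one {g : G} (hg : g ∈ Subgroup.normalizer (J S.XZ 2 8 : Set G)) (hgB : g ∉ J S.XZ 1 8 ⊔ S.T) :
    (∃ u ∈ J S.XZ 1 8, ∃ β ∈ J S.XZ 1 8 ⊔ S.T, g = u * S.n1 * β) ∧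
    ∀ u ∈ J S.XZ 1 8, g⁻¹ * u * g ∈ J S.XZ 1 8 ⊔ S.T → u ∈ J S.XZ 2 8 := by
  obtain ⟨b, hb, t, ht, w, hw, b', hb', rfl⟩ := S.bruhatE g
  have hv := norm_w S ((J_mono (by norm_num) (by norm_num)).trans (S.zsys8.le_normalizer (a := 2) (b := 8) (by norm_num)))
    (fun t ht => norm_T S ht) hb ht hb' hg
  have hK : J S.XZ 2 8 ≤ J S.XZ 1 8 := J_mono (by norm_num) le_rfl
  rcases inv_form S hw with ⟨c, h0, h7, hc⟩ | ⟨c, h5, h12, hc⟩
  · exfalso
    rcases eq_or_lt_of_le h0 with h | h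
    · subst h
      exact hgB (mem_B S hb ht (mem_T_of_zero S hc) hb')
    · rcases le_or_gt c 3 with h3 | h3
      · exact no_map S hK hv 8 (X_le_J (by norm_num) le_rfl) fun x hx =>
          J_mono (by omega) (by omega) (S.map_add hc hx)
      · exact no_map S hK hv 2 (X_le_J le_rfl (by norm_num)) fun x hx =>
          J_mono (by omega) (by omega) (S.map_add hc hx)
  · have h5' : c = 5 := by
      by_contra hne
      rcases le_or_gt c 8 with h8 | h8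
      · exact no_map S hK hv 2 (X_le_J le_rfl (by norm_num)) fun x hx =>
          J_mono (by omega) (by omega) (S.map_sub hc hx)
      · exact no_map S hK hv 8 (X_le_J (by norm_num) le_rfl) fun x hx =>
          J_mono (by omega) (by omega) (S.map_sub hc hx)
    subst h5'
    refine ⟨form_n S S.n1_maps S.n1_sq hb ht hb' ?_, transfer S (K := J S.XZ 2 8) (w := w) hb ht hb'
      (fun x hx => conj_28 S hb hx) (fun x hx => S.T_conj_J ht hx) (refl_low S hR hc le_rfl (by norm_num))⟩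
    exact hc

/-- **the second parabolic subgroup** -/
theorem desc_two {g : G} (hg : g ∈ Subgroup.normalizer (J S.XZ 1 7 : Set G)) (hgB : g ∉ J S.XZ 1 8 ⊔ S.T) :
    (∃ u ∈ J S.XZ 1 8, ∃ β ∈ J S.XZ 1 8 ⊔ S.T, g = u * S.n2 * β) ∧
    ∀ u ∈ J S.XZ 1 8, g⁻¹ * u * g ∈ J S.XZ 1 8 ⊔ S.T → u ∈ J S.XZ 1 7 := by
  obtain ⟨b, hb, t, ht, w, hw, b', hb', rfl⟩ := S.bruhatE g
  have hv := norm_w S ((J_mono (by norm_num) (by norm_num)).trans (S.zsys8.le_normalizer (a := 1) (b := 7) (by norm_num)))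
    (fun t ht => norm_T S ht) hb ht hb' hg
  have hK : J S.XZ 1 7 ≤ J S.XZ 1 8 := J_mono le_rfl (by norm_num)
  rcases inv_form S hw with ⟨c, h0, h7, hc⟩ | ⟨c, h5, h12, hc⟩
  · exfalso
    rcases eq_or_lt_of_le h0 with h | h
    · subst h
      exact hgB (mem_B S hb ht (mem_T_of_zero S hc) hb')
    · rcases le_or_gt c 4 with h3 | h3
      · exact no_map S hK hv 7 (X_le_J (by norm_num) le_rfl) fun x hx =>
          J_mono (by omega) (by omega) (S.map_add hc hx)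
      · exact no_map S hK hv 1 (X_le_J le_rfl (by norm_num)) fun x hx =>
          J_mono (by omega) (by omega) (S.map_add hc hx)
  · have h12' : c = 12 := by
      by_contra hne
      rcases le_or_gt c 8 with h8 | h8
      · exact no_map S hK hv 1 (X_le_J le_rfl (by norm_num)) fun x hx =>
          J_mono (by omega) (by omega) (S.map_sub hc hx)
      · exact no_map S hK hv 7 (X_le_J (by norm_num) le_rfl) fun x hx =>
          J_mono (by omega) (by omega) (S.map_sub hc hx)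
    subst h12'
    refine ⟨form_n S S.n2_maps S.n2_sq hb ht hb' ?_, transfer S (K := J S.XZ 1 7) (w := w) hb ht hb'
      (fun x hx => conj_17 S hb hx) (fun x hx => S.T_conj_J ht hx) (refl_high S hR hc (by norm_num) le_rfl)⟩
    have e : ((2 * 12 : ℤ) : ZMod (2 * 8)) = 8 := by decide
    rwa [e] at hc

end fin

end Cfsg.Agent.H628.EPX
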